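import Mathlib
import Cfsg.Agent.Lib.Helper73.UP.Defs

set_option autoImplicit false

/-! Project UP (S3575), package INV. -/

namespace Cfsg.Agent.Lib.Helper4.UP

open Equiv Cfsg.Agent.Lib.Helper73.UP

theorem lemInv : LemInv := by
  intro n r σ Z hr hσ hZ hmov
  classical
  have : Fact r.Prime := ⟨hr⟩
  let f : Function.End {x // x ∈ Z} := fun x => ⟨σ x.1, hZ x.1 x.2⟩
  have hpow : ∀ k : ℕ, ∀ x : {x // x ∈ Z}, ((f ^ k) x).1 = (σ ^ k) x.1 := by
    intro k
    induction k with
    | zero => intro x; rfl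
    | succ k ih =>
      intro x
      rw [pow_succ, pow_succ]
      change ((f ^ k) (f x)).1 = (σ ^ k) (σ x.1)
      rw [ih]
  have hf : f ^ r ^ 1 = 1 := by
    rw [pow_one]
    funext x
    apply Subtype.ext
    rw [hpow, hσ]
    rfl
  have h := Equiv.Perm.card_fixedPoints_modEq (f := f) (p := r) (n := 1) hf
  have hfix : Fintype.card (Function.fixedPoints f) = 0 := by
    rw [Fintype.card_eq_zero_iff]
    constructor
    rintro ⟨x, hx⟩
    exact hmov x.1 x.2 (congrArg Subtype.val hx)
  rw [hfix, Fintype.card_coe] at h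
  exact (Nat.modEq_zero_iff_dvd).1 h

end Cfsg.Agent.Lib.Helper4.UP
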