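import Mathlib
import Cfsg.Agent.Lib.Helper73.UP.Defs

set_option autoImplicit false

/-! Project UP (S3575), package NEC. -/

namespace Cfsg.Agent.Lib.Helper4.UP

open Equiv Cfsg.Agent.Lib.Helper73.UP

theorem lemNec_of (hI : LemInv) : LemNec := by
  intro a b r σ ha hr hord hex
  classical
  obtain ⟨f, hfib, π, hπ⟩ := hex
  have hσr : σ ^ r = 1 := by rw [← hord]; exact pow_orderOf_eq_one σ
  have hfibc : ∀ y : Fin b, (Finset.univ.filter (fun x => f x = y)).card = a := by
    intro y
    have h0 := hfib y
    rw [Nat.card_eq_fintype_card, Fintype.card_subtype] at h0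
    exact h0
  have hsurj : Function.Surjective f := by
    intro y
    have h1 := hfibc y
    have h2 : (Finset.univ.filter (fun x => f x = y)).Nonempty := by
      rw [← Finset.card_pos]; omega
    obtain ⟨x, hx⟩ := h2
    exact ⟨x, (Finset.mem_filter.1 hx).2⟩
  have hpow : ∀ k : ℕ, ∀ x, f ((σ ^ k) x) = (π ^ k) (f x) := by
    intro k
    induction k with
    | zero => intro x; simp
    | succ k ih =>
      intro x
      rw [pow_succ, pow_succ, Perm.mul_apply, Perm.mul_apply, ih, hπ]
  have hπr : π ^ r = 1 := by
    ext y
    obtain ⟨x, rfl⟩ := hsurj y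
    rw [← hpow, hσr]
    simp
  have hMdvd : r ∣ π.support.card := by
    refine hI b r π π.support hr hπr (fun x hx => ?_) (fun x hx => Perm.mem_support.1 hx)
    exact Perm.apply_mem_support.2 hx
  obtain ⟨t, ht⟩ := hMdvd
  refine ⟨t, ?_, ?_, ?_⟩
  · have h1 := Finset.card_le_univ π.support
    rw [Fintype.card_fin, ht] at h1
    calc t * r = r * t := mul_comm _ _
      _ ≤ b := h1
  · have hsub : (Finset.univ.filter (fun x => f x ∈ π.support)) ⊆ σ.support := by
      intro x hx
      rw [Finset.mem_filter] at hx
      rw [Perm.mem_support]
      intro hfix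
      have h2 : π (f x) = f x := by rw [← hπ, hfix]
      exact (Perm.mem_support.1 hx.2) h2
    have hcard : (Finset.univ.filter (fun x => f x ∈ π.support)).card = π.support.card * a := by
      rw [Finset.card_eq_sum_card_fiberwise (f := f) (t := π.support)
        (fun x hx => by simpa using hx)]
      rw [Finset.sum_const_nat]
      intro y hy
      refine (congrArg Finset.card ?_).trans (hfibc y)
      ext x
      simp only [Finset.mem_filter, Finset.mem_univ, true_and]
      constructor
      · exact fun h => h.2
      · intro h
        exact ⟨by rw [h]; exact hy, h⟩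
    calc t * a * r = π.support.card * a := by rw [ht]; ring
      _ = _ := hcard.symm
      _ ≤ _ := Finset.card_le_card hsub
  · have h1 : σ.support.card = ∑ y ∈ (Finset.univ : Finset (Fin b)),
        (σ.support.filter (fun x => f x = y)).card :=
      Finset.card_eq_sum_card_fiberwise (fun x _ => Finset.mem_coe.2 (Finset.mem_univ _))
    have hle : ∀ y : Fin b, (σ.support.filter (fun x => f x = y)).card ≤
        r * (a / r) + (if y ∈ π.support then a % r else 0) := by
      intro y
      have hle1 : (σ.support.filter (fun x => f x = y)).card ≤ a := by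
        refine (Finset.card_le_card ?_).trans (hfibc y).le
        intro x hx
        rw [Finset.mem_filter] at hx ⊢
        exact ⟨Finset.mem_univ _, hx.2⟩
      by_cases hy : y ∈ π.support
      · rw [if_pos hy, Nat.div_add_mod]
        exact hle1
      · rw [if_neg hy, add_zero]
        have hyfix : π y = y := Perm.notMem_support.1 hy
        have hdvd : r ∣ (σ.support.filter (fun x => f x = y)).card := by
          refine hI (a * b) r σ _ hr hσr (fun x hx => ?_) (fun x hx => ?_)
          · rw [Finset.mem_filter] at hx ⊢
            refine ⟨Perm.apply_mem_support.2 hx.1, ?_⟩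
            rw [hπ, hx.2, hyfix]
          · rw [Finset.mem_filter] at hx
            exact Perm.mem_support.1 hx.1
        obtain ⟨k, hk⟩ := hdvd
        rw [hk] at hle1 ⊢
        have hk2 : k ≤ a / r := by
          rw [Nat.le_div_iff_mul_le hr.pos]
          calc k * r = r * k := mul_comm _ _
            _ ≤ a := hle1
        exact Nat.mul_le_mul_left r hk2
    have hsum : ∑ y ∈ (Finset.univ : Finset (Fin b)),
        (r * (a / r) + (if y ∈ π.support then a % r else 0)) =
        r * (b * (a / r) + t * (a % r)) := by
      rw [Finset.sum_add_distrib, Finset.sum_const, Finset.card_univ, Fintype.card_fin,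
        Finset.sum_ite_mem, Finset.univ_inter, Finset.sum_const, ht]
      simp only [smul_eq_mul]
      ring
    rw [h1, ← hsum]
    exact Finset.sum_le_sum (fun y _ => hle y)

end Cfsg.Agent.Lib.Helper4.UP
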